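import Mathlib
import Cfsg.Agent.Lib.Helper38.Alt3.Defs

set_option autoImplicit false

/-! S2929 team project (coordinator helper38), package A1. -/

namespace Cfsg.Agent.Lib.Helper85.Alt3

open Cfsg.Agent.Lib.Helper38.Alt3

/-- a permutation fixing every point outside `O` preserves `O` -/
theorem preserves_of_fix_outside {n : ℕ} {O : Set (Fin n)} {a : Equiv.Perm (Fin n)}
    (ha : ∀ x, x ∉ O → a x = x) (x : Fin n) : a x ∈ O ↔ x ∈ O := by
  constructor
  · intro h
    by_contra hx
    rw [ha x hx] at h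
    exact hx h
  · intro h
    by_contra hx
    have h1 := ha (a x) hx
    have h2 : a x = x := a.injective h1
    rw [h2] at hx
    exact hx h

/-- `altOn n O` is the image of the alternating group on `↥O` under extension by the identity. -/
theorem altOn_eq_map {n : ℕ} (O : Set (Fin n)) [DecidablePred (· ∈ O)] [Fintype ↥O] :
    altOn n O = (alternatingGroup ↥O).map
      (Equiv.Perm.ofSubtype : Equiv.Perm ↥O →* Equiv.Perm (Fin n)) := by
  ext a
  constructor
  · rintro ⟨hs, hfix⟩
    have h1 : ∀ x, a x ∈ O ↔ x ∈ O := preserves_of_fix_outside hfix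
    have h2 : ∀ x, a x ≠ x → x ∈ O := fun x hx => by
      by_contra hxO
      exact hx (hfix x hxO)
    have h3 : Equiv.Perm.ofSubtype (a.subtypePerm h1) = a :=
      Equiv.Perm.ofSubtype_subtypePerm h1 h2
    refine ⟨a.subtypePerm h1, ?_, h3⟩
    show a.subtypePerm h1 ∈ alternatingGroup ↥O
    rw [Equiv.Perm.mem_alternatingGroup, ← Equiv.Perm.sign_ofSubtype, h3]
    exact hs
  · rintro ⟨s, hs, rfl⟩
    have hs' : Equiv.Perm.sign s = 1 := Equiv.Perm.mem_alternatingGroup.mp hs
    refine ⟨?_, fun x hx => ?_⟩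
    · rw [Equiv.Perm.sign_ofSubtype]; exact hs'
    · exact Equiv.Perm.ofSubtype_apply_of_not_mem s hx

/-- (A1) `altOn n O` is an alternating group of degree `|O|`. -/
theorem lemAIso : LemAIso := by
  intro n O m hm
  classical
  haveI : Fintype ↥O := Fintype.ofFinite _
  have hcard : Fintype.card ↥O = Fintype.card (Fin m) := by
    rw [Fintype.card_fin, ← Nat.card_eq_fintype_card]; exact hm
  have e : ↥O ≃ Fin m := Fintype.equivOfCardEq hcard
  have e1 : ↥(alternatingGroup ↥O) ≃* ↥(altOn n O) :=
    ((alternatingGroup ↥O).equivMapOfInjective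
      (Equiv.Perm.ofSubtype : Equiv.Perm ↥O →* Equiv.Perm (Fin n))
      Equiv.Perm.ofSubtype_injective).trans (MulEquiv.subgroupCongr (altOn_eq_map O).symm)
  exact ⟨e1.symm.trans (Equiv.altCongrHom e)⟩

end Cfsg.Agent.Lib.Helper85.Alt3
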