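import Mathlib
import Cfsg.Agent.Lib.Helper38.Alt3.Defs
import Cfsg.Agent.Lib.Helper85.Alt3.LemAIso

set_option autoImplicit false

/-! S2929 team project (coordinator helper38), package O. -/

namespace Cfsg.Agent.Lib.Helper85.Alt3

open Cfsg.Agent.Lib.Helper38.Alt3

/-- (O) the group generated by a set `T` of `3`-cycles contains every even permutation supported
in the orbit of a point. -/
theorem lemO (hJ : LemJ) : LemO := by
  intro n T hT c x _ _
  classical
  haveI : Fintype ↥(orb n T x) := Fintype.ofFinite _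
  let T' : Set (Equiv.Perm ↥(orb n T x)) := {s | Equiv.Perm.ofSubtype s ∈ T}
  have hT' : ∀ s ∈ T', s.IsThreeCycle := by
    intro s hs
    have h1 := hT _ hs
    unfold Equiv.Perm.IsThreeCycle at h1 ⊢
    rw [Equiv.Perm.cycleType_ofSubtype] at h1
    exact h1
  have hdich : ∀ t ∈ T, (∀ y, t y ≠ y → y ∈ orb n T x) ∨ (∀ y, y ∈ orb n T x → t y = y) := by
    intro t ht
    by_cases h : ∀ y, y ∈ orb n T x → t y = y
    · exact Or.inr h
    · left
      push_neg at h
      obtain ⟨y0, hy0, hty0⟩ := h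
      intro y hy
      obtain ⟨i, hi⟩ := (hT t ht).isCycle.exists_pow_eq hty0 hy
      rw [← hi]
      exact (orb_invariant (Subgroup.pow_mem _ (Subgroup.subset_closure ht) i) y0).mp hy0
  have hlift : ∀ g ∈ Subgroup.closure T, ∃ g' ∈ Subgroup.closure T',
      ∀ y : ↥(orb n T x), ((g' y : ↥(orb n T x)) : Fin n) = g y := by
    intro g hg
    induction hg using Subgroup.closure_induction with
    | mem t ht =>
      rcases hdich t ht with h | h
      · have h1 : ∀ y, t y ∈ orb n T x ↔ y ∈ orb n T x := fun y =>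
          (orb_invariant (Subgroup.subset_closure ht) y).symm
        have h3 : Equiv.Perm.ofSubtype (t.subtypePerm h1) = t :=
          Equiv.Perm.ofSubtype_subtypePerm h1 h
        refine ⟨t.subtypePerm h1, Subgroup.subset_closure ?_, fun y => rfl⟩
        show Equiv.Perm.ofSubtype (t.subtypePerm h1) ∈ T
        rw [h3]; exact ht
      · exact ⟨1, Subgroup.one_mem _, fun y => (h y y.2).symm⟩
    | one => exact ⟨1, Subgroup.one_mem _, fun y => rfl⟩
    | mul a b ha hb iha ihb =>
      obtain ⟨a', ha', ha2⟩ := iha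
      obtain ⟨b', hb', hb2⟩ := ihb
      refine ⟨a' * b', Subgroup.mul_mem _ ha' hb', fun y => ?_⟩
      rw [Equiv.Perm.mul_apply, Equiv.Perm.mul_apply, ha2, hb2]
    | inv a ha iha =>
      obtain ⟨a', ha', ha2⟩ := iha
      refine ⟨a'⁻¹, Subgroup.inv_mem _ ha', fun y => ?_⟩
      have h1 := ha2 (a'⁻¹ y)
      have h2 : a' (a'⁻¹ y) = y := by simp
      rw [h2] at h1
      rw [Equiv.Perm.eq_inv_iff_eq]
      exact h1.symm
  have htrans : ∀ y z : ↥(orb n T x), ∃ g ∈ Subgroup.closure T', g y = z := by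
    intro y z
    obtain ⟨g1, hg1, hy⟩ := y.2
    obtain ⟨g2, hg2, hz⟩ := z.2
    obtain ⟨g', hg', h⟩ := hlift (g2 * g1⁻¹)
      (Subgroup.mul_mem _ hg2 (Subgroup.inv_mem _ hg1))
    refine ⟨g', hg', Subtype.ext ?_⟩
    have h4 : g1⁻¹ (g1 x) = x := by simp
    rw [h, Equiv.Perm.mul_apply, ← hy, h4, hz]
  have hcl : Subgroup.closure T' = alternatingGroup ↥(orb n T x) :=
    hJ ↥(orb n T x) T' hT' htrans
  rw [altOn_eq_map (orb n T x), ← hcl, MonoidHom.map_closure]
  apply Subgroup.closure_mono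
  rintro _ ⟨s, hs, rfl⟩
  exact hs

end Cfsg.Agent.Lib.Helper85.Alt3
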